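import Cfsg.Agent.H714.RowTools
import Cfsg.Agent.H419.Spor.JModel
import Cfsg.Agent.H771.KJ2
import Cfsg.Agent.H771.KJ3

/-!
# The rows of `J₂` and `J₃` for S4943 (helper714)

Elements of orders 8 and 12 in the centralizer `2^{1+4}.A5` of an involution: they generate their own
centralizers and their cyclic groups are unique up to conjugation.
-/

set_option autoImplicit false

namespace Cfsg.Agent.H714.JRows

open Cfsg Cfsg.Agent.H713 Cfsg.Agent.H419.Row Cfsg.Agent.H419.Count Subgroup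
open Cfsg.Agent.J2Type.Model Cfsg.Agent.H419.Spor.JModel

universe u v

/-- the double transposition -/
def c22 : Equiv.Perm (Fin 5) := Equiv.swap 0 1 * Equiv.swap 2 3
/-- the 3-cycle -/
def c3 : Equiv.Perm (Fin 5) := Equiv.swap 0 1 * Equiv.swap 1 2

def r8 : SP := ⟨1, ![0, 0, 1, 1, 0]⟩
def r12 : SP := ⟨1, ![1, 1, 1, 1, 0]⟩

def ee (i j : Fin 5) : SP := ⟨1, fun k => (if k = i then 0 else 1) + (if k = j then 0 else 1)⟩

set_option synthInstance.maxHeartbeats 400000 in
set_option synthInstance.maxSize 2000 in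
theorem cent_g8 : ∀ (σ : Equiv.Perm (Fin 5)) (s : Fin 5 → ZMod 2), σ * c22 = c22 * σ → ∑ i, s i = 0 →
    Equiv.Perm.sign σ = 1 → (⟨σ, s⟩ : SP) * g8 = g8 * ⟨σ, s⟩ →
    (⟨σ, s⟩ : SP) ∈ (List.range 4).map (fun k => g8 ^ k) ∨
      (⟨σ, s⟩ : SP) ∈ (List.range 4).map (fun k => r8 * g8 ^ k) := by
  decide +kernel

set_option synthInstance.maxHeartbeats 400000 in
set_option synthInstance.maxSize 2000 in
theorem cent_g12 : ∀ (σ : Equiv.Perm (Fin 5)) (s : Fin 5 → ZMod 2), σ * c3 = c3 * σ → ∑ i, s i = 0 →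
    Equiv.Perm.sign σ = 1 → (⟨σ, s⟩ : SP) * g12 = g12 * ⟨σ, s⟩ →
    (⟨σ, s⟩ : SP) ∈ (List.range 6).map (fun k => g12 ^ k) ∨
      (⟨σ, s⟩ : SP) ∈ (List.range 6).map (fun k => r12 * g12 ^ k) := by
  decide +kernel

theorem conj_c22 : ∀ σ : Equiv.Perm (Fin 5), Equiv.Perm.sign σ = 1 → σ * σ = 1 → σ ≠ 1 →
    ∃ τ : Equiv.Perm (Fin 5), Equiv.Perm.sign τ = 1 ∧ τ * σ = c22 * τ := by
  decide +kernel

theorem conj_c3 : ∀ σ : Equiv.Perm (Fin 5), Equiv.Perm.sign σ = 1 → σ * σ * σ = 1 → σ ≠ 1 →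
    ∃ τ : Equiv.Perm (Fin 5), Equiv.Perm.sign τ = 1 ∧ τ * σ = c3 * τ := by
  decide +kernel

theorem conj_g8 : ∀ s : Fin 5 → ZMod 2, ∑ i, s i = 0 →
    (∃ i j : Fin 5, i ≠ j ∧ (⟨c22, s⟩ : SP) * ⟨c22, s⟩ = ee i j) →
    ∃ w : Fin 5 → ZMod 2, ∑ i, w i = 0 ∧ ((⟨1, w⟩ : SP) * ⟨c22, s⟩ = g8 * ⟨1, w⟩ ∨
      (⟨Equiv.swap 0 2 * Equiv.swap 1 3, w⟩ : SP) * ⟨c22, s⟩ = g8 * ⟨Equiv.swap 0 2 * Equiv.swap 1 3, w⟩) := by
  decide +kernel

theorem conj_g12 : ∀ s : Fin 5 → ZMod 2, ∑ i, s i = 0 →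
    (∃ i j : Fin 5, i ≠ j ∧ (⟨c3, s⟩ : SP) * ⟨c3, s⟩ * ⟨c3, s⟩ = ee i j) →
    ∃ w : Fin 5 → ZMod 2, ∑ i, w i = 0 ∧ (⟨1, w⟩ : SP) * ⟨c3, s⟩ = g12 * ⟨1, w⟩ := by
  decide +kernel

theorem perm_sixteen : ∀ σ : Equiv.Perm (Fin 5), Equiv.Perm.sign σ = 1 → σ ^ 8 = 1 → σ * σ = 1 := by
  decide +kernel

theorem perm_twelve : ∀ σ : Equiv.Perm (Fin 5), Equiv.Perm.sign σ = 1 → σ ^ 12 = 1 →
    σ * σ = 1 ∨ σ * σ * σ = 1 := by
  decide +kernel

section model

variable {C : Type*} [Group C] {Q : Subgroup C} {z : C} {v : Fin 5 → C} {ρ : C →* SP}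
variable (M : IsModel Q z v ρ)
include M

omit M in
theorem zp_cases (a : ZMod 2) : zp z a = 1 ∨ zp z a = z := by
  by_cases h : a = 0
  · left; rw [h, zp_zero]
  · right; exact if_neg h

theorem lift_eq {c x : C} (h : ρ c = ρ x) : c = x ∨ c = z * x := by
  have h1 : ρ (c * x⁻¹) = 1 := by rw [map_mul, map_inv, h, mul_inv_cancel]
  rcases (M.ker _).1 h1 with h2 | h2
  · left; exact mul_inv_eq_one.1 h2
  · right; exact mul_inv_eq_iff_eq_mul.1 h2

theorem rho_ee (i j : Fin 5) : ρ (v i * v j) = ee i j := by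
  rw [map_mul, rho_v M, rho_v M]
  apply SP.ext
  · rw [mul_σ, one_mul]; rfl
  · funext k
    rw [mul_s]
    show (if k = j then (0 : ZMod 2) else 1) + (if k = i then 0 else 1) = _
    rw [add_comm]
    rfl

theorem sq_form {d : C} (hd : d ∈ Q) (hdd : d * d = z) : ∃ i j, i ≠ j ∧ ρ d = ee i j := by
  have hz : ∀ c : C, c * z = z * c := M.z_comm
  have hzz : ∀ a : ZMod 2, zp z a * zp z a = 1 := by
    intro a
    rcases zp_cases (z := z) a with h | h
    · rw [h, one_mul]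
    · rw [h, M.z_sq]
  have hzc : ∀ (a : ZMod 2) (c : C), c * zp z a = zp z a * c := by
    intro a c
    rcases zp_cases (z := z) a with h | h
    · rw [h, one_mul, mul_one]
    · rw [h, hz]
  rcases M.cover d hd with ⟨a, h⟩ | ⟨a, i, h⟩ | ⟨a, i, j, hij, h⟩
  · exfalso
    rw [h, hzz] at hdd
    exact M.z_ne hdd.symm
  · exfalso
    have h1 : d * d = 1 := by
      rw [h]
      calc zp z a * v i * (zp z a * v i) = zp z a * (v i * zp z a) * v i := by group
        _ = zp z a * (zp z a * v i) * v i := by rw [hzc]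
        _ = (zp z a * zp z a) * (v i * v i) := by group
        _ = 1 := by rw [hzz, M.v_sq, one_mul]
    rw [h1] at hdd
    exact M.z_ne hdd.symm
  · refine ⟨i, j, hij.ne, ?_⟩
    have h1 : ρ (zp z a) = 1 := by
      rcases zp_cases (z := z) a with h | h
      · rw [h, map_one]
      · rw [h]; exact (M.ker z).2 (Or.inr rfl)
    rw [h, map_mul, h1, one_mul, rho_ee M]

omit M in
theorem z_mem_zpowers {x : C} {n : ℕ} (h : x ^ n = z) : z ∈ zpowers x := h ▸ pow_mem (mem_zpowers x) n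

theorem cent_eight {x : C} (hx : ρ x = g8) (hx4 : x ^ 4 = z) {g : C} (hg : g * x = x * g) :
    g ∈ zpowers x := by
  have h1 : ρ g * g8 = g8 * ρ g := by rw [← hx, ← map_mul, ← map_mul, hg]
  have h2 : (ρ g).σ * c22 = c22 * (ρ g).σ := congrArg SP.σ h1
  have h4 := (M.range (ρ g)).1 ⟨g, rfl⟩
  have hzx := z_mem_zpowers hx4
  rcases cent_g8 (ρ g).σ (ρ g).s h2 h4.2 h4.1 h1 with h | h
  · obtain ⟨k, -, hk⟩ := List.mem_map.1 h
    have h5 : ρ g = ρ (x ^ k) := by rw [map_pow, hx]; exact hk.symm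
    rcases lift_eq M h5 with h6 | h6
    · rw [h6]; exact pow_mem (mem_zpowers x) k
    · rw [h6]; exact mul_mem hzx (pow_mem (mem_zpowers x) k)
  · exfalso
    obtain ⟨k, -, hk⟩ := List.mem_map.1 h
    have h5 : ρ g = ρ (v 2 * v 3 * x ^ k) := by
      rw [map_mul, map_pow, hx, rho_ee M]
      have h7 : ee 2 3 = r8 := by decide +kernel
      rw [h7]; exact hk.symm
    have h6 : (v 2 * v 3) * x = x * (v 2 * v 3) := by
      have hc : ∀ c : C, c = v 2 * v 3 * x ^ k ∨ c = z * (v 2 * v 3 * x ^ k) → c * x = x * c →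
          (v 2 * v 3) * x = x * (v 2 * v 3) := by
        intro c hc hcx
        have h7 : (v 2 * v 3 * x ^ k) * x = x * (v 2 * v 3 * x ^ k) := by
          rcases hc with h | h
          · rw [← h, hcx]
          · rw [h] at hcx
            have h8 : x * (z * (v 2 * v 3 * x ^ k)) = z * (x * (v 2 * v 3 * x ^ k)) := by
              rw [← mul_assoc, M.z_comm, mul_assoc]
            rw [h8, mul_assoc z] at hcx
            exact mul_left_cancel hcx
        have h8 : (v 2 * v 3) * x * x ^ k = x * (v 2 * v 3) * x ^ k := by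
          calc (v 2 * v 3) * x * x ^ k = (v 2 * v 3 * x ^ k) * x := by
                rw [mul_assoc (v 2 * v 3), ← pow_succ', pow_succ, ← mul_assoc]
            _ = x * (v 2 * v 3 * x ^ k) := h7
            _ = x * (v 2 * v 3) * x ^ k := by rw [← mul_assoc]
        exact mul_right_cancel h8
      exact hc g (lift_eq M h5) hg
    have h7 : x * v 2 * x⁻¹ = v 3 := by
      rw [M.conj x 2, hx]
      have e1 : g8.s 2 = 0 := by decide +kernel
      have e2 : g8.σ 2 = 3 := by decide +kernel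
      rw [e1, e2, zp_zero, one_mul]
    have h8 : x * v 3 * x⁻¹ = v 2 := by
      rw [M.conj x 3, hx]
      have e1 : g8.s 3 = 0 := by decide +kernel
      have e2 : g8.σ 3 = 2 := by decide +kernel
      rw [e1, e2, zp_zero, one_mul]
    have h9 : v 2 * v 3 = z * (v 2 * v 3) := by
      calc v 2 * v 3 = x * (v 2 * v 3) * x⁻¹ := by rw [← h6, mul_inv_cancel_right]
        _ = (x * v 2 * x⁻¹) * (x * v 3 * x⁻¹) := by group
        _ = v 3 * v 2 := by rw [h7, h8]
        _ = z * (v 2 * v 3) := M.v_anti 3 2 (by decide)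
    exact M.z_ne (mul_eq_right.1 h9.symm)

theorem cent_twelve {x : C} (hx : ρ x = g12) (hx6 : x ^ 6 = z) {g : C} (hg : g * x = x * g) :
    g ∈ zpowers x := by
  have h1 : ρ g * g12 = g12 * ρ g := by rw [← hx, ← map_mul, ← map_mul, hg]
  have h2 : (ρ g).σ * c3 = c3 * (ρ g).σ := congrArg SP.σ h1
  have h4 := (M.range (ρ g)).1 ⟨g, rfl⟩
  have hzx := z_mem_zpowers hx6
  rcases cent_g12 (ρ g).σ (ρ g).s h2 h4.2 h4.1 h1 with h | h
  · obtain ⟨k, -, hk⟩ := List.mem_map.1 h
    have h5 : ρ g = ρ (x ^ k) := by rw [map_pow, hx]; exact hk.symm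
    rcases lift_eq M h5 with h6 | h6
    · rw [h6]; exact pow_mem (mem_zpowers x) k
    · rw [h6]; exact mul_mem hzx (pow_mem (mem_zpowers x) k)
  · exfalso
    obtain ⟨k, -, hk⟩ := List.mem_map.1 h
    have h5 : ρ g = ρ (v 4 * x ^ k) := by
      rw [map_mul, map_pow, hx, rho_v M]
      have h7 : (⟨1, fun j => if j = 4 then 0 else 1⟩ : SP) = r12 := by decide +kernel
      rw [h7]; exact hk.symm
    have h6 : v 4 * x = x * v 4 := by
      have hc : ∀ c : C, c = v 4 * x ^ k ∨ c = z * (v 4 * x ^ k) → c * x = x * c → v 4 * x = x * v 4 := by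
        intro c hc hcx
        have h7 : (v 4 * x ^ k) * x = x * (v 4 * x ^ k) := by
          rcases hc with h | h
          · rw [← h, hcx]
          · rw [h] at hcx
            have h8 : x * (z * (v 4 * x ^ k)) = z * (x * (v 4 * x ^ k)) := by
              rw [← mul_assoc, M.z_comm, mul_assoc]
            rw [h8, mul_assoc z] at hcx
            exact mul_left_cancel hcx
        have h8 : v 4 * x * x ^ k = x * v 4 * x ^ k := by
          calc v 4 * x * x ^ k = (v 4 * x ^ k) * x := by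
                rw [mul_assoc (v 4), ← pow_succ', pow_succ, ← mul_assoc]
            _ = x * (v 4 * x ^ k) := h7
            _ = x * v 4 * x ^ k := by rw [← mul_assoc]
        exact mul_right_cancel h8
      exact hc g (lift_eq M h5) hg
    have h7 : x * v 4 * x⁻¹ = z * v 4 := by
      rw [M.conj x 4, hx]
      have e1 : g12.s 4 = 1 := by decide +kernel
      have e2 : g12.σ 4 = 4 := by decide +kernel
      rw [e1, e2, zp_one]
    rw [← h6, mul_inv_cancel_right] at h7
    exact M.z_ne (mul_eq_right.1 h7.symm)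

omit [Group C] M in
theorem sigma_pow : ∀ (n : ℕ) (g : SP), (g ^ n).σ = g.σ ^ n := by
  intro n g
  induction n with
  | zero => rfl
  | succ n ih => rw [pow_succ, pow_succ, ← ih]; rfl

theorem conj_pow_z {c g : C} {n : ℕ} (h : c ^ n = z) : (g * c * g⁻¹) ^ n = z := by
  rw [conj_pow, h, M.z_comm, mul_inv_cancel_right]

/-- elements with `c ^ 4 = z` -/
theorem conj_eight {x : C} (hx : ρ x = g8) (hx4 : x ^ 4 = z) {c : C} (hc : c ^ 4 = z) :
    ∃ g : C, zpowers (g * c * g⁻¹) = zpowers x := by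
  have hσ : ∀ c : C, c ^ 4 = z → Equiv.Perm.sign (ρ c).σ = 1 ∧ (ρ c).σ * (ρ c).σ = 1 ∧ c * c ∈ Q ∧
      (c * c) * (c * c) = z := by
    intro c hc
    have h1 := ((M.range _).1 ⟨c, rfl⟩).1
    have h2 : (ρ c).σ ^ 8 = 1 := by
      rw [← sigma_pow, ← map_pow, show (8 : ℕ) = 4 * 2 from rfl, pow_mul, hc, pow_two, M.z_sq, map_one]
      rfl
    have h3 := perm_sixteen _ h1 h2
    refine ⟨h1, h3, ?_, ?_⟩
    · rw [M.mem_Q, map_mul]
      exact h3
    · rw [← hc, ← pow_two, ← pow_two, ← pow_mul]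
  obtain ⟨h1, h2, h3, h4⟩ := hσ c hc
  have h5 : (ρ c).σ ≠ 1 := by
    intro h
    rcases KFacts.QMinus.sq_mem M ((M.mem_Q c).2 h) with h6 | h6
    · rw [h6, one_mul] at h4
      exact M.z_ne h4.symm
    · rw [h6, M.z_sq] at h4
      exact M.z_ne h4.symm
  obtain ⟨τ, hτ1, hτ2⟩ := conj_c22 _ h1 h2 h5
  obtain ⟨g1, hg1⟩ := exists_lift M ⟨τ, fun _ => 0⟩ hτ1 (by simp)
  have hc' := conj_pow_z M (g := g1) hc
  set c' := g1 * c * g1⁻¹ with hc'def
  obtain ⟨k1, k2, k3, k4⟩ := hσ c' hc'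
  have k5 : (ρ c').σ = c22 := by
    have e1 : ρ c' = ρ g1 * ρ c * (ρ g1)⁻¹ := by rw [hc'def, map_mul, map_mul, map_inv]
    have e2 : (ρ c').σ = τ * (ρ c).σ * τ⁻¹ := by rw [e1, hg1]; rfl
    rw [e2, hτ2, mul_inv_cancel_right]
  obtain ⟨i, j, hij, k6⟩ := sq_form M k3 k4
  have k7 : (⟨c22, (ρ c').s⟩ : SP) = ρ c' := by rw [← k5]
  have k8 := ((M.range _).1 ⟨c', rfl⟩).2
  obtain ⟨w, hw1, hw2⟩ := conj_g8 (ρ c').s k8 ⟨i, j, hij, by rw [k7, ← map_mul, k6]⟩
  rw [k7] at hw2
  have key : ∀ g : SP, Equiv.Perm.sign g.σ = 1 → ∑ i, g.s i = 0 → g * ρ c' = g8 * g →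
      ∃ g : C, zpowers (g * c * g⁻¹) = zpowers x := by
    intro g hg1' hg2 hg3
    obtain ⟨g2, hg2'⟩ := exists_lift M g hg1' hg2
    refine ⟨g2 * g1, ?_⟩
    have e1 : g2 * g1 * c * (g2 * g1)⁻¹ = g2 * c' * g2⁻¹ := by rw [hc'def]; group
    rw [e1]
    have e2 : ρ (g2 * c' * g2⁻¹) = ρ x := by
      rw [map_mul, map_mul, map_inv, hg2', hg3, mul_inv_cancel_right, hx]
    rcases lift_eq M e2 with e3 | e3
    · rw [e3]
    · rw [e3]
      have e4 : z * x = x ^ 5 := by rw [← hx4, ← pow_succ]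
      rw [e4]
      apply le_antisymm
      · rw [zpowers_le]; exact pow_mem (mem_zpowers x) 5
      · rw [zpowers_le]
        refine ⟨5, ?_⟩
        show (x ^ 5) ^ (5 : ℤ) = x
        have e5 : x ^ 8 = 1 := by rw [show (8 : ℕ) = 4 * 2 from rfl, pow_mul, hx4, pow_two, M.z_sq]
        rw [show (5 : ℤ) = ((5 : ℕ) : ℤ) from rfl, zpow_natCast, ← pow_mul,
          show 5 * 5 = 8 * 3 + 1 from rfl, pow_succ, pow_mul, e5, one_pow, one_mul]
  rcases hw2 with hw2 | hw2
  · exact key ⟨1, w⟩ (by simp) hw1 hw2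
  · exact key ⟨Equiv.swap 0 2 * Equiv.swap 1 3, w⟩
      (show Equiv.Perm.sign (Equiv.swap (0 : Fin 5) 2 * Equiv.swap 1 3) = 1 by decide +kernel) hw1 hw2

/-- elements with `c ^ 6 = z`, `c ^ 4 ≠ 1` -/
theorem conj_twelve {x : C} (hx : ρ x = g12) (hx6 : x ^ 6 = z) {c : C} (hc : c ^ 6 = z) (hc4 : c ^ 4 ≠ 1) :
    ∃ g : C, zpowers (g * c * g⁻¹) = zpowers x := by
  have hσ : ∀ c : C, c ^ 6 = z → c ^ 4 ≠ 1 → Equiv.Perm.sign (ρ c).σ = 1 ∧
      (ρ c).σ * (ρ c).σ * (ρ c).σ = 1 ∧ (ρ c).σ ≠ 1 ∧ c * c * c ∈ Q ∧ (c * c * c) * (c * c * c) = z := by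
    intro c hc hc4
    have h1 := ((M.range _).1 ⟨c, rfl⟩).1
    have h2 : (ρ c).σ ^ 12 = 1 := by
      rw [← sigma_pow, ← map_pow, show (12 : ℕ) = 6 * 2 from rfl, pow_mul, hc, pow_two, M.z_sq, map_one]
      rfl
    have h0 : (ρ c).σ * (ρ c).σ ≠ 1 := by
      intro h
      have h3 : c * c ∈ Q := by
        rw [M.mem_Q, map_mul]
        exact h
      have h5 : c ^ 4 = c * c * (c * c) := by rw [show (4 : ℕ) = 2 * 2 from rfl, pow_mul, pow_two, pow_two]
      rcases KFacts.QMinus.sq_mem M h3 with h4 | h4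
      · exact hc4 (h5.trans h4)
      · have h6 : c ^ 6 = c ^ 4 * (c * c) := by rw [← pow_two, ← pow_add]
        rw [hc, h5, h4] at h6
        have h7 : c * c = 1 := (mul_eq_left.1 h6.symm)
        apply hc4
        rw [h5, h7, one_mul]
    rcases perm_twelve _ h1 h2 with h3 | h3
    · exact absurd h3 h0
    · refine ⟨h1, h3, fun h => h0 (by rw [h, one_mul]), ?_, ?_⟩
      · rw [M.mem_Q, map_mul, map_mul]
        exact h3
      · rw [← hc]
        have : c * c * c = c ^ 3 := by rw [pow_succ, pow_two]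
        rw [this, ← pow_add]
  obtain ⟨h1, h2, h5, h3, h4⟩ := hσ c hc hc4
  obtain ⟨τ, hτ1, hτ2⟩ := conj_c3 _ h1 h2 h5
  obtain ⟨g1, hg1⟩ := exists_lift M ⟨τ, fun _ => 0⟩ hτ1 (by simp)
  have hc' := conj_pow_z M (g := g1) hc
  have hc4' : (g1 * c * g1⁻¹) ^ 4 ≠ 1 := by
    rw [conj_pow]
    intro h
    apply hc4
    have := mul_inv_eq_one.1 h
    exact mul_eq_left.1 this
  set c' := g1 * c * g1⁻¹ with hc'def
  obtain ⟨k1, k2, -, k3, k4⟩ := hσ c' hc' hc4'
  have k5 : (ρ c').σ = c3 := by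
    have e1 : ρ c' = ρ g1 * ρ c * (ρ g1)⁻¹ := by rw [hc'def, map_mul, map_mul, map_inv]
    have e2 : (ρ c').σ = τ * (ρ c).σ * τ⁻¹ := by rw [e1, hg1]; rfl
    rw [e2, hτ2, mul_inv_cancel_right]
  obtain ⟨i, j, hij, k6⟩ := sq_form M k3 k4
  have k7 : (⟨c3, (ρ c').s⟩ : SP) = ρ c' := by rw [← k5]
  have k8 := ((M.range _).1 ⟨c', rfl⟩).2
  obtain ⟨w, hw1, hw2⟩ := conj_g12 (ρ c').s k8 ⟨i, j, hij, by rw [k7, ← map_mul, ← map_mul, k6]⟩
  rw [k7] at hw2
  obtain ⟨g2, hg2'⟩ := exists_lift M ⟨1, w⟩ (by simp) hw1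
  refine ⟨g2 * g1, ?_⟩
  have e1 : g2 * g1 * c * (g2 * g1)⁻¹ = g2 * c' * g2⁻¹ := by rw [hc'def]; group
  rw [e1]
  have e2 : ρ (g2 * c' * g2⁻¹) = ρ x := by
    rw [map_mul, map_mul, map_inv, hg2', hw2, mul_inv_cancel_right, hx]
  rcases lift_eq M e2 with e3 | e3
  · rw [e3]
  · rw [e3]
    have e4 : z * x = x ^ 7 := by rw [← hx6, ← pow_succ]
    rw [e4]
    apply le_antisymm
    · rw [zpowers_le]; exact pow_mem (mem_zpowers x) 7
    · rw [zpowers_le]
      refine ⟨7, ?_⟩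
      show (x ^ 7) ^ (7 : ℤ) = x
      have e5 : x ^ 12 = 1 := by rw [show (12 : ℕ) = 6 * 2 from rfl, pow_mul, hx6, pow_two, M.z_sq]
      rw [show (7 : ℤ) = ((7 : ℕ) : ℤ) from rfl, zpow_natCast, ← pow_mul,
        show 7 * 7 = 12 * 4 + 1 from rfl, pow_succ, pow_mul, e5, one_pow, one_mul]

theorem exists_eight' : ∃ x : C, ρ x = g8 ∧ x ^ 4 = z := by
  obtain ⟨c, hc⟩ := exists_lift M g8 (by decide +kernel) (by decide +kernel)
  refine ⟨c, hc, pow_eq_z M (n := 2) 0 1 (by decide) ?_⟩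
  rw [hc]
  decide +kernel

theorem exists_twelve' : ∃ x : C, ρ x = g12 ∧ x ^ 6 = z ∧ x ^ 4 ≠ 1 := by
  obtain ⟨c, hc⟩ := exists_lift M g12 (by decide +kernel) (by decide +kernel)
  refine ⟨c, hc, pow_eq_z M (n := 3) 3 4 (by decide) ?_, fun h => ?_⟩
  · rw [hc]
    decide +kernel
  · apply g12_four
    rw [← hc, ← map_pow, h, map_one]

theorem orderOf_eight {x : C} (hx : x ^ 4 = z) : orderOf x = 8 :=
  orderOf_of_pow M (n := 4) (by norm_num) hx fun p hp h2 hd =>
    absurd ((Nat.prime_dvd_prime_iff_eq hp Nat.prime_two).1 (hp.dvd_of_dvd_pow (show p ∣ 2 ^ 2 from hd))) h2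

theorem orderOf_twelve {x : C} (hx : x ^ 6 = z) (hx' : x ^ 4 ≠ 1) : orderOf x = 12 := by
  refine orderOf_of_pow M (n := 6) (by norm_num) hx fun p hp h2 hd => ?_
  have h3 : p = 3 := by
    have : p ∣ 2 * 3 := hd
    rcases hp.dvd_mul.1 this with h | h
    · exact absurd ((Nat.prime_dvd_prime_iff_eq hp Nat.prime_two).1 h) h2
    · exact (Nat.prime_dvd_prime_iff_eq hp Nat.prime_three).1 h
  subst h3
  exact hx'

end model

section group

variable {G : Type*} [Group G] [Finite G]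

theorem vz_of_cent {t : G} {n m : ℕ} (x : centralizer ({t} : Set G)) (hx : (x : G) ^ n = t) (hm : orderOf x = m)
    (hcent : ∀ g : centralizer ({t} : Set G), g * x = x * g → g ∈ zpowers x)
    (hconj : ∀ c : centralizer ({t} : Set G), (c : G) ^ n = t → orderOf c = m →
      ∃ g : centralizer ({t} : Set G), zpowers (g * c * g⁻¹) = zpowers x)
    (hk : m < Nat.card (ConjClasses G)) (hα : ∀ α : MulAut G, IsConj t (α t)) : VZ G (x : G) := by
  refine vz_of_van (van_of_card_lt (lt_of_le_of_lt ?_ hk)) fun α => ?_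
  · have h1 : centralizer ({(x : G)} : Set G) ≤ zpowers (x : G) := by
      intro g hg
      have hg' : g * (x : G) = x * g := mem_centralizer_singleton_iff.1 hg
      have hgt : g ∈ centralizer ({t} : Set G) := by
        rw [mem_centralizer_singleton_iff]
        have h2 := ((show Commute g (x : G) from hg').pow_right n).eq
        rwa [hx] at h2
      have h1 := hcent ⟨g, hgt⟩ (Subtype.ext hg')
      obtain ⟨k, hk⟩ := mem_zpowers_iff.1 h1
      exact mem_zpowers_iff.2 ⟨k, congrArg Subtype.val hk⟩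
    calc Nat.card (centralizer ({(x : G)} : Set G)) ≤ Nat.card (zpowers (x : G)) := Subgroup.card_le_of_le h1
      _ = m := by rw [Nat.card_zpowers, Subgroup.orderOf_coe, hm]
  · obtain ⟨c0, hc0⟩ := isConj_iff.1 (hα α)
    have e1 : c0⁻¹ * α t * c0 = t := by rw [← hc0]; group
    have e2 : (c0⁻¹ * α x * c0) ^ n = t := by
      have := conj_pow (a := c0⁻¹) (b := α x) (i := n)
      rw [inv_inv] at this
      rw [this, ← map_pow, hx, e1]
    have hmem : c0⁻¹ * α x * c0 ∈ centralizer ({t} : Set G) := by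
      rw [mem_centralizer_singleton_iff]
      have h5 : ∀ w : G, w ^ n = t → w * t = t * w := by
        rintro w rfl
        rw [← pow_succ, ← pow_succ']
      exact h5 _ e2
    have ho : orderOf (c0⁻¹ * α x * c0) = m := by
      have h3 := (MulAut.conj c0⁻¹).orderOf_eq (α x)
      rw [MulAut.conj_apply, inv_inv, MulEquiv.orderOf_eq, Subgroup.orderOf_coe, hm] at h3
      exact h3
    obtain ⟨g, hg⟩ := hconj ⟨_, hmem⟩ e2 (by rw [Subgroup.orderOf_mk, ho])
    refine ⟨g * c0⁻¹, ?_⟩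
    have e3 : (g : G) * c0⁻¹ * α x * ((g : G) * c0⁻¹)⁻¹ = g * (c0⁻¹ * α x * c0) * (g : G)⁻¹ := by group
    rw [e3]
    have h4 := congrArg (Subgroup.map (centralizer ({t} : Set G)).subtype) hg
    rw [MonoidHom.map_zpowers, MonoidHom.map_zpowers] at h4
    exact h4

/-- rows from the model of the centralizer of an involution -/
theorem row_of_model {t : G} {Q : Subgroup (centralizer ({t} : Set G))}
    {v : Fin 5 → centralizer ({t} : Set G)} {ρ : centralizer ({t} : Set G) →* SP}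
    {z : centralizer ({t} : Set G)} (hz : (z : G) = t) (M : IsModel Q z v ρ)
    (hα : ∀ α : MulAut G, IsConj t (α t)) (hk : 12 < Nat.card (ConjClasses G)) : Row.{u} G := by
  have hval : ∀ (c : centralizer ({t} : Set G)) (n : ℕ), (c : G) ^ n = t → c ^ n = z := fun c n h =>
    Subtype.ext (by rw [hz]; exact h)
  obtain ⟨x, hx, hx4⟩ := exists_eight' M
  obtain ⟨y, hy, hy6, hy4⟩ := exists_twelve' M
  have hvx : VZ G (x : G) := vz_of_cent x (n := 4) ((congrArg Subtype.val hx4).trans hz) (orderOf_eight M hx4)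
    (fun g hg => cent_eight M hx hx4 hg) (fun c hc _ => conj_eight M hx hx4 (hval c 4 hc)) (by omega) hα
  have hvy : VZ G (y : G) := vz_of_cent y (n := 6) ((congrArg Subtype.val hy6).trans hz) (orderOf_twelve M hy6 hy4)
    (fun g hg => cent_twelve M hy hy6 hg) (fun c hc ho => conj_twelve M hy hy6 (hval c 6 hc) (by
      intro h
      have := orderOf_dvd_of_pow_eq_one h
      rw [ho] at this
      exact absurd this (by norm_num))) hk hα
  have h8 : orderOf (x : G) = 8 := by rw [Subgroup.orderOf_coe, orderOf_eight M hx4]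
  have h12 : orderOf (y : G) = 12 := by rw [Subgroup.orderOf_coe, orderOf_twelve M hy6 hy4]
  exact RowTools.row_of_orders hvx hvy (d := 4) (by norm_num) (by rw [h8]; norm_num) (by rw [h12]; norm_num)
    (by rw [h8, h12]; norm_num)

end group

/-! ### J2 -/

open Cfsg.Agent.H92.KTools Cfsg.Agent.H771.KTools

theorem card_classes_j2 {S : Type*} [Group S] (h : Spor.IsoJ2 S) : 13 ≤ Nat.card (ConjClasses S) := by
  have hcard := NotCT.Orders.j2 h
  have hfin : Finite S := Nat.finite_of_card_ne_zero (by rw [hcard]; norm_num)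
  obtain ⟨t, u, Q, v, ρ, D⟩ := KFacts.J2.Facts.exists_dat_of h
  have hor := fun n hn => Cfsg.Agent.H419.Spor.JModel.exists_orders' D.M n hn
  refine le_trans (by decide) (count_two (G := S) D.tt D.t_ne D.uu D.u_ne D.F.nconj {3, 5} {1, 3, 4, 5, 7, 8, 12}
    ?_ ?_ (by decide) (by decide))
  · rw [D.F.cardC, D.card_cent_u]
    intro p hp
    simp only [Finset.mem_insert, Finset.mem_singleton] at hp
    rcases hp with rfl | rfl <;> norm_num
  · intro m hm
    simp only [Finset.mem_insert, Finset.mem_singleton] at hm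
    rcases hm with rfl | rfl | rfl | rfl | rfl | rfl | rfl
    · exact hor 1 (by decide)
    · exact hor 3 (by decide)
    · exact hor 4 (by decide)
    · exact hor 5 (by decide)
    · exact hasOrd_prime (by norm_num) (by rw [hcard]; norm_num)
    · exact hor 8 (by decide)
    · exact hor 12 (by decide)

theorem row_j2 {S : Type v} [Group S] (h : Spor.IsoJ2 S) : Row.{u, v} S := by
  have hcard := NotCT.Orders.j2 h
  have hfin : Finite S := Nat.finite_of_card_ne_zero (by rw [hcard]; norm_num)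
  obtain ⟨t, u, Q, v, ρ, D⟩ := KFacts.J2.Facts.exists_dat_of h
  exact row_of_model rfl D.M (fun α => D.isConj_aut α) (card_classes_j2 h)

/-! ### J3 -/

theorem not_conj_c5 : ∀ τ : Equiv.Perm (Fin 5), Equiv.Perm.sign τ = 1 → τ * c5 ≠ c5 * c5 * c5 * τ := by
  decide +kernel

theorem card_classes_j3 {S : Type*} [Group S] (h : Spor.IsoJ3 S) : 13 ≤ Nat.card (ConjClasses S) := by
  obtain ⟨-, z, Q, v, ρ, n, u, D⟩ := KFacts.J3.exists_facts h
  have hcard := D.card_K
  have hfin : Finite S := Nat.finite_of_card_ne_zero (by rw [hcard]; norm_num)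
  have hzz : z * z = 1 := congrArg Subtype.val D.model.z_sq
  have hz1 : z ≠ 1 := fun h => D.model.z_ne (Subtype.ext h)
  have hor := fun n hn => Cfsg.Agent.H419.Spor.JModel.exists_orders' D.model n hn
  have h16 : ¬ HasOrd S 16 := by
    rintro ⟨g, hg⟩
    have h1 : g ^ 8 ≠ 1 := pow_ne_one_of_lt_orderOf (by norm_num) (by rw [hg]; norm_num)
    have h2 : g ^ 8 * g ^ 8 = 1 := by rw [← pow_add, ← pow_orderOf_eq_one g, hg]
    obtain ⟨c, hc⟩ := D.one _ h1 h2
    set w := c⁻¹ * g * c with hw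
    have hw8 : w ^ 8 = z := by
      have h3 : w ^ 8 = c⁻¹ * g ^ 8 * c := by
        have := conj_pow (a := c⁻¹) (b := g) (i := 8)
        rw [inv_inv] at this
        exact this
      rw [h3, ← hc]; group
    have hwz : w * z = z * w := by rw [← hw8, ← pow_succ', ← pow_succ]
    have h4 := H771.KJ3.pow_eight D.model (c := ⟨w, mem_centralizer_singleton_iff.2 hwz⟩) (Subtype.ext (by
      show w ^ 16 = 1
      rw [show (16 : ℕ) = 8 * 2 from rfl, pow_mul, hw8, pow_two, hzz]))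
    have h5 : w ^ 8 = 1 := congrArg Subtype.val h4
    rw [hw8] at h5
    exact hz1 h5
  refine le_trans (by decide) (sum_le (G := S) {1, 2, 3, 4, 5, 6, 8, 10, 12, 17, 19}
    (fun n => if n = 17 then 2 else if n = 10 then 2 else 1) ?_)
  have hd : ∀ p, p.Prime → p ∣ 50232960 → HasOrd S p := fun p hp hd => hasOrd_prime hp (by rwa [hcard])
  have hall : ∀ m ∈ ({1, 2, 3, 4, 5, 6, 8, 10, 12, 17, 19} : Finset ℕ), HasOrd S m := by
    intro m hm
    by_cases h9 : m ∈ ({1, 2, 3, 4, 5, 6, 8, 10, 12} : Finset ℕ)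
    · exact hor m h9
    · have h3 : m = 17 ∨ m = 19 := by
        simp only [Finset.mem_insert, Finset.mem_singleton] at hm h9
        omega
      rcases h3 with rfl | rfl
      · exact hd 17 (by norm_num) (by norm_num)
      · exact hd 19 (by norm_num) (by norm_num)
  intro m hm
  by_cases hm10 : m = 10
  · subst hm10
    obtain ⟨x, hx5, hx⟩ := exists_ten D.model
    have hx10 : orderOf x = 10 := by
      refine orderOf_of_pow D.model (n := 5) (by norm_num) hx5 fun p hp h2 hd => ?_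
      have h3 : p = 5 := (Nat.prime_dvd_prime_iff_eq hp Nat.prime_five).1 hd
      subst h3
      intro h
      apply g5_sq
      rw [← hx, ← map_pow]
      change x ^ 2 = 1 at h
      rw [h, map_one]
    have hxS : orderOf (x : S) = 10 := by rw [Subgroup.orderOf_coe, hx10]
    refine ⟨[(x : S), (x : S) ^ 3], rfl, ?_, ?_⟩
    · have h1 : orderOf ((x : S) ^ 3) = 10 := by rw [Nat.Coprime.orderOf_pow (by rw [hxS]; decide), hxS]
      simp [hxS, h1]
    · simp only [List.pairwise_cons, List.mem_singleton, forall_eq, List.not_mem_nil, false_imp_iff,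
        implies_true, List.Pairwise.nil, and_true]
      intro hc
      obtain ⟨g, hg⟩ := isConj_iff.1 hc
      have hz5 : (x : S) ^ 5 = z := congrArg Subtype.val hx5
      have hgz : g * z = z * g := by
        have h1 : g * z * g⁻¹ = z := by
          rw [← hz5]
          rw [← conj_pow, hg, ← pow_mul, show 3 * 5 = 10 + 5 from rfl, pow_add]
          rw [show (x : S) ^ 10 = 1 by rw [← hxS, pow_orderOf_eq_one], one_mul]
        exact mul_inv_eq_iff_eq_mul.1 h1
      let g' : centralizer ({z} : Set S) := ⟨g, mem_centralizer_singleton_iff.2 hgz⟩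
      have h2 : g' * x = x * x * x * g' := by
        apply Subtype.ext
        show g * (x : S) = x * x * x * g
        rw [← mul_inv_eq_iff_eq_mul, hg, pow_succ, pow_two]
      have h3 := congrArg SP.σ (congrArg ρ h2)
      rw [map_mul, map_mul, map_mul, map_mul, hx] at h3
      have h4 := ((D.model.range _).1 ⟨g', rfl⟩).1
      exact not_conj_c5 _ h4 h3
  · obtain ⟨g, hg⟩ := hall m hm
    by_cases hm17 : m = 17
    · subst hm17
      refine ⟨[g, g ^ 3], rfl, ?_, ?_⟩
      · have h1 : orderOf (g ^ 3) = 17 := by rw [Nat.Coprime.orderOf_pow (by rw [hg]; decide), hg]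
        simp [hg, h1]
      · simp only [List.pairwise_cons, List.mem_singleton, forall_eq, List.not_mem_nil, false_imp_iff,
          implies_true, List.Pairwise.nil, and_true]
        exact H771.KJ3.not_conj_seventeen h16 hg
    · exact ⟨[g], by rw [if_neg hm17, if_neg hm10]; rfl, by simpa using hg, by simp⟩

theorem row_j3 {S : Type v} [Group S] (h : Spor.IsoJ3 S) : Row.{u, v} S := by
  obtain ⟨-, z, Q, v, ρ, n, u, D⟩ := KFacts.J3.exists_facts h
  have hcard := D.card_K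
  have hfin : Finite S := Nat.finite_of_card_ne_zero (by rw [hcard]; norm_num)
  have hz1 : z ≠ 1 := fun h => D.model.z_ne (Subtype.ext h)
  have hzz : z * z = 1 := congrArg Subtype.val D.model.z_sq
  refine row_of_model rfl D.model (fun α => ?_) (card_classes_j3 h)
  obtain ⟨g, hg⟩ := D.one (α z) (fun h => hz1 (by simpa using h)) (by rw [← map_mul, hzz, map_one])
  exact isConj_iff.2 ⟨g, hg⟩

end Cfsg.Agent.H714.JRows
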